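import Mathlib

/-!
# A summand of an algebra with at most two trace forms

If the summand cut out by a central idempotent carries at most two independent trace forms, one of which is
not a combination of traces of simple representations, then its dimension is twice a square.
-/

set_option linter.unusedSectionVars false

namespace CfsgLib.Blocks.TwoChar

open Module

variable {k A : Type*} [Field k] [Ring A] [Algebra k A]

/-- Trace forms on the summand cut out by `e`. -/
def IsTr (e : A) (f : Module.Dual k A) : Prop := (∀ x y, f (x * y) = f (y * x)) ∧ ∀ z, f (e * z) = f z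

variable [IsAlgClosed k] [FiniteDimensional k A]

theorem exists_split :
    ∃ (s : ℕ) (d : Fin s → ℕ), (∀ i, NeZero (d i)) ∧
      ∃ π : A →ₐ[k] Π i, Matrix (Fin (d i)) (Fin (d i)) k, Function.Surjective π ∧
        ∃ N : ℕ, (LinearMap.ker π.toLinearMap) ^ (N + 1) = ⊥ := by
  haveI := IsArtinianRing.of_finite k A
  haveI : IsSemisimpleRing (A ⧸ Ring.jacobson A) := IsSemiprimaryRing.isSemisimpleRing
  haveI : FiniteDimensional k (A ⧸ Ring.jacobson A) :=
    Module.Finite.of_surjective (Ideal.Quotient.mkₐ k (Ring.jacobson A)).toLinearMap Ideal.Quotient.mk_surjective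
  obtain ⟨s, d, hd, ⟨φ⟩⟩ :=
    IsSemisimpleRing.exists_algEquiv_pi_matrix_of_isAlgClosed (F := k) (R := A ⧸ Ring.jacobson A)
  refine ⟨s, d, hd, φ.toAlgHom.comp (Ideal.Quotient.mkₐ k (Ring.jacobson A)),
    φ.surjective.comp Ideal.Quotient.mk_surjective, ?_⟩
  obtain ⟨N, hN⟩ := (IsSemiprimaryRing.isNilpotent : IsNilpotent (Ring.jacobson A))
  refine ⟨N, le_bot_iff.1 ?_⟩
  have hker : LinearMap.ker (φ.toAlgHom.comp (Ideal.Quotient.mkₐ k (Ring.jacobson A))).toLinearMap
      = Submodule.restrictScalars k (Ring.jacobson A) := by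
    ext x
    rw [LinearMap.mem_ker, Submodule.restrictScalars_mem, ← Ideal.Quotient.eq_zero_iff_mem]
    exact map_eq_zero_iff φ φ.injective
  rw [hker]
  rw [← Submodule.restrictScalars_pow N.succ_ne_zero, Submodule.pow_succ, hN]
  simp

/-- A trace form on the corner of `f` spreads over the summand of `e`. -/
theorem exists_extend {e f : A} (hc : ∀ z, Commute e z) {n : ℕ} (u v : Fin n → A)
    (hu : ∀ i, e * u i = u i) (huf : ∀ i, u i * f = u i) (hfv : ∀ i, f * v i = v i)
    (hve : ∀ i, v i * e = v i) (hsum : ∑ i, u i * v i = e) (hfe : f * e = f) (hff : f * f = f)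
    (h : Module.Dual k A) (hh : ∀ x y, f * x * f = x → f * y * f = y → h (x * y) = h (y * x)) :
    ∃ F : Module.Dual k A, IsTr e F ∧ ∀ x, f * x * f = x → F x = h x := by
  classical
  refine ⟨∑ i, h ∘ₗ (LinearMap.mulLeft k (v i)) ∘ₗ (LinearMap.mulRight k (u i)), ⟨?_, ?_⟩, ?_⟩
  · intro x y
    simp only [LinearMap.sum_apply, LinearMap.comp_apply, LinearMap.mulLeft_apply, LinearMap.mulRight_apply]
    have hcor : ∀ z i j, f * (v i * z * u j) * f = v i * z * u j := fun z i j => by
      rw [mul_assoc (f), mul_assoc (v i * z), huf, ← mul_assoc, ← mul_assoc, hfv]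
    have key : ∀ x y i, v i * (x * y * u i) = ∑ j, (v i * x * u j) * (v j * y * u i) := by
      intro x y i
      have : ∑ j, (v i * x * u j) * (v j * y * u i) = v i * x * (∑ j, u j * v j) * (y * u i) := by
        rw [Finset.mul_sum, Finset.sum_mul]
        exact Finset.sum_congr rfl fun j _ => by simp only [mul_assoc]
      rw [this, hsum]
      calc v i * (x * y * u i) = v i * (x * y * (e * u i)) := by rw [hu]
        _ = v i * x * ((y * e) * u i) := by simp only [mul_assoc]
        _ = v i * x * ((e * y) * u i) := by rw [(hc y).eq]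
        _ = v i * x * e * (y * u i) := by simp only [mul_assoc]
    rw [Finset.sum_congr rfl fun i _ => by rw [key, map_sum]]
    conv_rhs => rw [Finset.sum_congr rfl fun i _ => by rw [key, map_sum]]
    rw [Finset.sum_comm]
    exact Finset.sum_congr rfl fun i _ => Finset.sum_congr rfl fun j _ => hh _ _ (hcor _ _ _) (hcor _ _ _)
  · intro z
    simp only [LinearMap.sum_apply, LinearMap.comp_apply, LinearMap.mulLeft_apply, LinearMap.mulRight_apply]
    exact Finset.sum_congr rfl fun i _ => by rw [← mul_assoc, ← mul_assoc, hve, mul_assoc]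
  · intro x hx
    simp only [LinearMap.sum_apply, LinearMap.comp_apply, LinearMap.mulLeft_apply, LinearMap.mulRight_apply]
    have hfx : f * x = x := by
      rw [← hx, ← mul_assoc, ← mul_assoc, hff]
    have hxf : x * f = x := by rw [← hx, mul_assoc, hff]
    have h1 : ∀ i, h (v i * (x * u i)) = h ((x * u i) * (v i * f)) := fun i => by
      rw [hh (x * u i) (v i * f) (by rw [← mul_assoc, hfx, mul_assoc, huf])
        (by rw [← mul_assoc, hfv, mul_assoc, hff])]
      congr 1
      rw [mul_assoc (v i) f, ← mul_assoc f x, hfx]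
    rw [Finset.sum_congr rfl fun i _ => h1 i, ← map_sum]
    congr 1
    calc ∑ i, x * u i * (v i * f) = x * (∑ i, u i * v i) * f := by
          rw [Finset.mul_sum, Finset.sum_mul]; exact Finset.sum_congr rfl fun i _ => by simp only [mul_assoc]
      _ = x * e * f := by rw [hsum]
      _ = x * (e * f) := mul_assoc _ _ _
      _ = x := by rw [(hc f).eq, hfe, hxf]

/-- The key statement about the summand. -/
theorem finrank_range_eq_two_sq {e : A} (he : IsIdempotentElem e) (hc : ∀ z, Commute e z) (he0 : e ≠ 0)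
    (hW : ∀ F : Fin 3 → Module.Dual k A, (∀ i, IsTr e (F i)) → ¬ LinearIndependent k F)
    {τ : Module.Dual k A} (hτ : IsTr e τ) {y r : A} (hne : τ y ≠ τ r)
    (hnil : ∀ (m : ℕ) (ρ : A →ₐ[k] Matrix (Fin m) (Fin m) k), (ρ y).trace = (ρ r).trace) :
    ∃ n : ℕ, Module.finrank k (LinearMap.range (LinearMap.mulLeft k e)) = 2 * n ^ 2 := by
  classical
  obtain ⟨s, d, hd, π, hπ, N, hN⟩ := exists_split (k := k) (A := A)
  -- the components of the summand
  have hcomp : ∀ i, π e i = 0 ∨ π e i = 1 := by
    intro i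
    haveI := hd i
    obtain ⟨c, hc'⟩ : π e i ∈ Set.range (Matrix.scalar (Fin (d i))) := by
      refine Matrix.mem_range_scalar_iff_commute_single'.2 fun a b => ?_
      obtain ⟨z, hz⟩ := hπ (Pi.single i (Matrix.single a b (1 : k)))
      have := congrFun (congrArg π (hc z).eq) i
      rw [map_mul, map_mul, Pi.mul_apply, Pi.mul_apply, hz, Pi.single_eq_same] at this
      exact this.symm
    have h2 : π e i * π e i = π e i := by rw [← Pi.mul_apply, ← map_mul, he.eq]
    rw [← hc', ← map_mul] at h2
    have h3 := Matrix.scalar_inj.1 h2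
    rcases mul_left_eq_self₀.1 h3 with h | h
    · exact Or.inr (by rw [← hc', h, map_one])
    · exact Or.inl (by rw [← hc', h, map_zero])
  have hkerN : ∀ x, π x = 0 → x ^ (N + 1) = 0 := by
    intro x hx
    have : x ^ (N + 1) ∈ (LinearMap.ker π.toLinearMap) ^ (N + 1) :=
      Submodule.pow_mem_pow _ (show x ∈ LinearMap.ker π.toLinearMap from hx) _
    rwa [hN, Submodule.mem_bot] at this
  have hnilker : ∀ x, π x = 0 → IsNilpotent x := fun x hx => ⟨N + 1, hkerN x hx⟩
  obtain ⟨i₀, hi₀⟩ : ∃ i, π e i = 1 := by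
    by_contra hcon
    push Not at hcon
    have h := hkerN e (funext fun i => (hcomp i).resolve_right (hcon i))
    rw [he.pow_succ_eq] at h
    exact he0 h
  -- traces of the components
  let t : ∀ i, Module.Dual k A := fun i =>
    (Matrix.traceLinearMap (Fin (d i)) k k) ∘ₗ (LinearMap.proj i) ∘ₗ π.toLinearMap
  have ht : ∀ i z, t i z = (π z i).trace := fun i z => rfl
  have htr : ∀ i, π e i = 1 → IsTr e (t i) := fun i hi =>
    ⟨fun a b => by rw [ht, ht, map_mul, map_mul, Pi.mul_apply, Pi.mul_apply, Matrix.trace_mul_comm],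
      fun z => by rw [ht, ht, map_mul, Pi.mul_apply, hi, one_mul]⟩
  have htyr : ∀ i, t i y = t i r := fun i => hnil (d i) ((Pi.evalAlgHom k _ i).comp π)
  have huniq : ∀ i, π e i = 1 → i = i₀ := by
    intro i hi
    by_contra hne'
    refine hW ![t i, t i₀, τ] ?_ (Fintype.linearIndependent_iff.2 fun c hcs => ?_)
    · intro j
      fin_cases j
      exacts [htr i hi, htr i₀ hi₀, hτ]
    simp only [Fin.sum_univ_three, Matrix.cons_val] at hcs
    have hy' := congrArg (fun F : Module.Dual k A => F y - F r) hcs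
    simp only [LinearMap.add_apply, LinearMap.smul_apply, smul_eq_mul, LinearMap.zero_apply, sub_zero, htyr] at hy'
    have h2 : c 2 = 0 := by
      have : c 2 * (τ y - τ r) = 0 := by linear_combination hy'
      exact (mul_eq_zero.1 this).resolve_right (sub_ne_zero.2 hne)
    haveI := hd i; haveI := hd i₀
    obtain ⟨z, hz⟩ := hπ (Pi.single i (Matrix.single 0 0 (1 : k)))
    obtain ⟨z', hz'⟩ := hπ (Pi.single i₀ (Matrix.single 0 0 (1 : k)))
    have a1 := congrArg (fun F : Module.Dual k A => F z) hcs
    have a2 := congrArg (fun F : Module.Dual k A => F z') hcs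
    simp [ht, hz, hz', h2, hne', Ne.symm hne', Pi.single_eq_of_ne] at a1 a2
    intro j
    fin_cases j
    exacts [a1, a2, h2]
  set n := d i₀ with hn
  haveI : NeZero n := hd i₀
  let ρ : A →ₐ[k] Matrix (Fin n) (Fin n) k := (Pi.evalAlgHom k _ i₀).comp π
  have hρ : ∀ z, ρ z = π z i₀ := fun _ => rfl
  have hρsurj : Function.Surjective ρ := fun w => by
    obtain ⟨z, hz⟩ := hπ (Pi.single i₀ w)
    exact ⟨z, by rw [hρ, hz, Pi.single_eq_same]⟩
  have hρe : ρ e = 1 := hi₀
  have hker0 : ∀ x, e * x = x → ρ x = 0 → π x = 0 := by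
    intro x hx h0
    funext i
    rcases hcomp i with h | h
    · rw [← hx, map_mul, Pi.mul_apply, h, zero_mul]; rfl
    · rw [huniq i h]; exact h0
  -- the lifted idempotent
  obtain ⟨f₀, hf₀, hf₀π⟩ := exists_isIdempotentElem_eq_of_ker_isNilpotent π.toRingHom
    (fun x hx => hnilker x hx) (Pi.single i₀ (Matrix.single 0 0 (1 : k))) (hπ _) (by
      rw [IsIdempotentElem, ← Pi.single_mul, Matrix.single_mul_single_same, one_mul])
  obtain ⟨f, hf⟩ : ∃ f, f = e * f₀ := ⟨_, rfl⟩
  have hef : e * f = f := by rw [hf, ← mul_assoc, he.eq]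
  have hfe : f * e = f := by rw [(hc f).symm.eq, hef]
  have hff : f * f = f := by
    rw [hf, mul_assoc, ← mul_assoc f₀, ← (hc f₀).eq, mul_assoc e f₀, hf₀.eq, ← mul_assoc, he.eq]
  have hρf : ρ f = Matrix.single 0 0 1 := by
    rw [hf, map_mul, hρe, one_mul, hρ]
    exact (congrFun hf₀π i₀).trans (Pi.single_eq_same _ _)
  choose a ha using fun i : Fin n => hρsurj (Matrix.single i 0 (1 : k))
  choose b hb using fun i : Fin n => hρsurj (Matrix.single 0 i (1 : k))
  set x := ∑ i, (e * a i * f) * (f * b i * e) with hx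
  have hρx : ρ x = 1 := by
    rw [hx, map_sum]
    simp only [map_mul, ha, hb, hρe, hρf, one_mul, mul_one, Matrix.single_mul_single_same, mul_one]
    ext p q
    simp [Matrix.sum_apply, Matrix.single_apply, Matrix.one_apply, ite_and]
  have hex : e * x = x := by
    rw [hx, Finset.mul_sum]
    exact Finset.sum_congr rfl fun i _ => by simp only [← mul_assoc, he.eq]
  have hn0 : π (e - x) = 0 := hker0 _ (by rw [mul_sub, he.eq, hex]) (by rw [map_sub, hρe, hρx, sub_self])
  set w := ∑ i ∈ Finset.range (N + 1), (e - x) ^ i with hw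
  have hw1 : (1 - (e - x)) * w = 1 := by rw [hw, mul_neg_geom_sum, hkerN _ hn0, sub_zero]
  have hxw : x * w = e := by
    conv_rhs => rw [← mul_one e, ← hw1, ← mul_assoc, mul_sub, mul_one, mul_sub, he.eq, hex, sub_sub_cancel]
  have hρw : ρ w = 1 := by
    have := congrArg ρ hw1
    rwa [map_mul, map_sub, map_sub, map_one, hρe, hρx, sub_self, sub_zero, one_mul] at this
  obtain ⟨u, hu'⟩ : ∃ u : Fin n → A, u = fun i => e * a i * f := ⟨_, rfl⟩
  obtain ⟨v, hv'⟩ : ∃ v : Fin n → A, v = fun i => f * b i * e * w * e := ⟨_, rfl⟩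
  have hu : ∀ i, e * u i = u i := fun i => by simp only [hu', ← mul_assoc, he.eq]
  have huf : ∀ i, u i * f = u i := fun i => by simp only [hu']; rw [mul_assoc, hff]
  have hfv : ∀ i, f * v i = v i := fun i => by simp only [hv', ← mul_assoc, hff]
  have hve : ∀ i, v i * e = v i := fun i => by simp only [hv']; rw [mul_assoc, he.eq]
  have hsum : ∑ i, u i * v i = e := by
    have : ∑ i, u i * v i = x * w * e := by
      rw [hx, Finset.sum_mul, Finset.sum_mul]
      exact Finset.sum_congr rfl fun i _ => by simp only [hu', hv', mul_assoc]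
    rw [this, hxw, he.eq]
  have hρu : ∀ i, ρ (u i) = Matrix.single i 0 1 := fun i => by
    simp only [hu', map_mul, ha, hρe, hρf, one_mul, Matrix.single_mul_single_same]
  have hρv : ∀ i, ρ (v i) = Matrix.single 0 i 1 := fun i => by
    simp only [hv', map_mul, hb, hρe, hρf, hρw, mul_one, Matrix.single_mul_single_same, one_mul]
  -- the corner
  let C : Submodule k A := LinearMap.range (LinearMap.mulLeft k f ∘ₗ LinearMap.mulRight k f)
  have hmemC : ∀ z, z ∈ C ↔ f * z * f = z := by
    intro z
    constructor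
    · rintro ⟨z, rfl⟩
      simp only [LinearMap.comp_apply, LinearMap.mulLeft_apply, LinearMap.mulRight_apply]
      rw [← mul_assoc f z, ← mul_assoc, ← mul_assoc, hff, mul_assoc (f * z), hff]
    · intro h
      exact ⟨z, by simp only [LinearMap.comp_apply, LinearMap.mulLeft_apply, LinearMap.mulRight_apply, ← mul_assoc, h]⟩
  let J : Submodule k A := C ⊓ LinearMap.ker ρ.toLinearMap
  have hJmem : ∀ z, z ∈ J ↔ f * z * f = z ∧ ρ z = 0 := fun z => by
    simp only [J, Submodule.mem_inf, hmemC, LinearMap.mem_ker]; rfl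
  have hfC : ∀ z, f * z * f = z → f * z = z ∧ z * f = z := fun z h =>
    ⟨by rw [← h, ← mul_assoc, ← mul_assoc, hff], by rw [← h, mul_assoc, hff]⟩
  have hdec : ∀ z, f * z * f = z → ∃ c : k, ρ z 0 0 = c ∧ z - c • f ∈ J := by
    intro z h
    refine ⟨ρ z 0 0, rfl, (hJmem _).2 ⟨?_, ?_⟩⟩
    · rw [mul_sub, sub_mul, mul_smul_comm, smul_mul_assoc, hff, hff, h]
    · have h2 := congrArg ρ h
      rw [map_mul, map_mul, hρf, Matrix.single_mul_mul_single, one_mul, mul_one] at h2
      rw [map_sub, map_smul, hρf, Matrix.smul_single, smul_eq_mul, mul_one, h2]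
      simp
  have hJker : ∀ z ∈ J, π z = 0 := fun z hz => by
    obtain ⟨h1, h2⟩ := (hJmem z).1 hz
    refine hker0 z ?_ h2
    conv_rhs => rw [← h1]
    conv_lhs => rw [← h1]
    rw [← mul_assoc, ← mul_assoc, hef]
  have hJmul : J * J ≤ J := Submodule.mul_le.2 fun p hp q hq => by
    obtain ⟨p1, p2⟩ := (hJmem p).1 hp
    obtain ⟨q1, -⟩ := (hJmem q).1 hq
    refine (hJmem _).2 ⟨?_, by rw [map_mul, p2, zero_mul]⟩
    rw [← mul_assoc, (hfC p p1).1, mul_assoc, (hfC q q1).2]
  -- a first generator: commutators of the corner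
  have hgen : ∀ I : Submodule k A, I ≤ J → (∀ p ∈ J, ∀ q ∈ J, p * q - q * p ∈ I) →
      ∃ g ∈ J, J ≤ Submodule.span k {g} ⊔ I := by
    intro I hIJ hcommI
    by_contra hcon
    push Not at hcon
    obtain ⟨g, hg, hgI⟩ : ∃ g ∈ J, g ∉ I := by
      by_contra h
      push Not at h
      exact hcon 0 J.zero_mem (le_trans (show J ≤ I from h) le_sup_right)
    obtain ⟨g', hg', hgI'⟩ := SetLike.not_le_iff_exists.1 (hcon g hg)
    have hρ00 : ∀ z ∈ J, ρ z 0 0 = 0 := fun z hz => by rw [((hJmem z).1 hz).2]; rfl
    let c0 : Module.Dual k A :=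
      { toFun := fun z => ρ z 0 0
        map_add' := fun p q => by rw [map_add, Matrix.add_apply]
        map_smul' := fun c z => by simp [map_smul] }
    have hc0f : c0 f = 1 := by
      show ρ f 0 0 = 1
      rw [hρf, Matrix.single_apply_same]
    have hfIg : g ∉ I ⊔ Submodule.span k {f} := by
      rw [Submodule.mem_sup]
      rintro ⟨i, hi, q, hq, hiq⟩
      obtain ⟨c, rfl⟩ := Submodule.mem_span_singleton.1 hq
      have h0 := hρ00 g hg
      rw [← hiq, map_add, Matrix.add_apply, hρ00 i (hIJ hi), map_smul, Matrix.smul_apply, hρf,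
        Matrix.single_apply_same, zero_add, smul_eq_mul, mul_one] at h0
      rw [h0, zero_smul, add_zero] at hiq
      exact hgI (hiq ▸ hi)
    have hfIg' : g' ∉ I ⊔ Submodule.span k {f} ⊔ Submodule.span k {g} := by
      rw [sup_right_comm, sup_comm I, Submodule.mem_sup]
      rintro ⟨i, hi, q, hq, hiq⟩
      obtain ⟨c, rfl⟩ := Submodule.mem_span_singleton.1 hq
      have hiJ : i ∈ J := (sup_le ((Submodule.span_singleton_le_iff_mem g J).2 hg) hIJ) hi
      have h0 := hρ00 g' hg'
      rw [← hiq, map_add, Matrix.add_apply, hρ00 i hiJ, map_smul, Matrix.smul_apply, hρf,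
        Matrix.single_apply_same, zero_add, smul_eq_mul, mul_one] at h0
      rw [h0, zero_smul, add_zero] at hiq
      exact hgI' (hiq ▸ hi)
    obtain ⟨h1, h1g, h1k⟩ := Submodule.exists_dual_map_eq_bot_of_notMem hfIg inferInstance
    obtain ⟨h2, h2g, h2k⟩ := Submodule.exists_dual_map_eq_bot_of_notMem hfIg' inferInstance
    rw [← le_bot_iff, Submodule.map_le_iff_le_comap, Submodule.comap_bot] at h1k h2k
    have htrC : ∀ h : Module.Dual k A, (∀ z ∈ I, h z = 0) →
        ∀ p q, f * p * f = p → f * q * f = q → h (p * q) = h (q * p) := by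
      intro h hI p q hp hq
      obtain ⟨cp, -, hpJ⟩ := hdec p hp
      obtain ⟨cq, -, hqJ⟩ := hdec q hq
      have key : p * q - q * p = (p - cp • f) * (q - cq • f) - (q - cq • f) * (p - cp • f) := by
        simp only [mul_sub, sub_mul, smul_mul_assoc, mul_smul_comm, (hfC p hp).1, (hfC p hp).2, (hfC q hq).1,
          (hfC q hq).2, hff, smul_sub, smul_comm cp cq]
        abel
      have := hI _ (key ▸ hcommI _ hpJ _ hqJ)
      rwa [map_sub, sub_eq_zero] at this
    obtain ⟨F0, hF0, hF0'⟩ := exists_extend hc u v hu huf hfv hve hsum hfe hff c0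
      (htrC c0 fun z hz => hρ00 z (hIJ hz))
    obtain ⟨F1, hF1, hF1'⟩ := exists_extend hc u v hu huf hfv hve hsum hfe hff h1
      (htrC h1 fun z hz => h1k (Submodule.mem_sup_left hz))
    obtain ⟨F2, hF2, hF2'⟩ := exists_extend hc u v hu huf hfv hve hsum hfe hff h2
      (htrC h2 fun z hz => h2k (Submodule.mem_sup_left (Submodule.mem_sup_left hz)))
    refine hW ![F0, F1, F2] (fun j => by fin_cases j; exacts [hF0, hF1, hF2])
      (Fintype.linearIndependent_iff.2 fun c hcs => ?_)
    simp only [Fin.sum_univ_three, Matrix.cons_val] at hcs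
    have hf' : f * f * f = f := by rw [hff, hff]
    have ev : ∀ z, f * z * f = z → c 0 * c0 z + c 1 * h1 z + c 2 * h2 z = 0 := fun z hz => by
      have := congrArg (fun F : Module.Dual k A => F z) hcs
      simpa [hF0' z hz, hF1' z hz, hF2' z hz] using this
    have e0 := ev f hf'
    rw [hc0f, show h1 f = 0 from h1k (Submodule.mem_sup_right (Submodule.mem_span_singleton_self _)),
      show h2 f = 0 from h2k (Submodule.mem_sup_left (Submodule.mem_sup_right (Submodule.mem_span_singleton_self _))),
      mul_one, mul_zero, mul_zero, add_zero, add_zero] at e0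
    have e1 := ev g ((hJmem g).1 hg).1
    rw [e0, zero_mul, zero_add,
      show h2 g = 0 from h2k (Submodule.mem_sup_right (Submodule.mem_span_singleton_self _)), mul_zero, add_zero] at e1
    have e1' := (mul_eq_zero.1 e1).resolve_right h1g
    have e2 := ev g' ((hJmem g').1 hg').1
    rw [e0, e1', zero_mul, zero_mul, zero_add, zero_add] at e2
    intro j
    fin_cases j
    exacts [e0, e1', (mul_eq_zero.1 e2).resolve_right h2g]
  -- the corner is commutative
  obtain ⟨g, hg, hJg⟩ := hgen (J * J) hJmul fun p hp q hq =>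
    Submodule.sub_mem _ (Submodule.mul_mem_mul hp hq) (Submodule.mul_mem_mul hq hp)
  let P : Submodule k A := J ⊓ Subalgebra.toSubmodule (Algebra.adjoin k ({g} : Set A))
  have hPP : P * P ≤ P := Submodule.mul_le.2 fun p hp q hq =>
    ⟨hJmul (Submodule.mul_mem_mul hp.1 hq.1), (Algebra.adjoin k ({g} : Set A)).mul_mem hp.2 hq.2⟩
  have hPJ : P ≤ J := inf_le_left
  have hJP : ∀ m : ℕ, J ≤ P ⊔ J ^ (m + 1) := by
    intro m
    induction m with
    | zero => rw [zero_add, pow_one]; exact le_sup_right
    | succ m ih =>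
      refine hJg.trans (sup_le (le_sup_of_le_left ?_) ((mul_le_mul' ih ih).trans ?_))
      · rw [Submodule.span_singleton_le_iff_mem]
        exact ⟨hg, Algebra.subset_adjoin rfl⟩
      · rw [Submodule.sup_mul, Submodule.mul_sup, Submodule.mul_sup]
        refine sup_le (sup_le (le_sup_of_le_left hPP) (le_sup_of_le_right ?_)) (le_sup_of_le_right (sup_le ?_ ?_))
        · rw [pow_succ' J (m + 1)]; exact mul_le_mul' hPJ le_rfl
        · rw [pow_succ J (m + 1)]; exact mul_le_mul' le_rfl hPJ
        · rw [pow_succ J (m + 1)]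
          refine mul_le_mul' le_rfl ?_
          calc J ^ (m + 1) ≤ J := by
                clear ih
                induction m with
                | zero => rw [zero_add, pow_one]
                | succ m ih' => rw [pow_succ]; exact (mul_le_mul' ih' le_rfl).trans hJmul
            _ ≤ J := le_rfl
  have hJbot : J ^ (N + 1) = ⊥ := by
    refine le_bot_iff.1 (le_trans (pow_le_pow_left' (fun z hz => ?_) _) hN.le)
    exact hJker z hz
  have hJad : ∀ p ∈ J, p ∈ Algebra.adjoin k ({g} : Set A) := fun p hp => by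
    have := hJP N hp
    rw [hJbot, sup_bot_eq] at this
    exact this.2
  have hJcomm : ∀ p ∈ J, ∀ q ∈ J, p * q = q * p := by
    intro p hp q hq
    have hcomm := Algebra.isMulCommutative_adjoin k (s := ({g} : Set A)) (by simp)
    exact congrArg Subtype.val (hcomm.is_comm.comm (⟨p, hJad p hp⟩ : Algebra.adjoin k ({g} : Set A)) ⟨q, hJad q hq⟩)
  obtain ⟨z, hz, hJz⟩ := hgen ⊥ bot_le fun p hp q hq => by rw [hJcomm p hp q hq, sub_self]; exact Submodule.zero_mem _
  rw [sup_bot_eq] at hJz
  -- the corner is not a field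
  have hvzu : ∀ q i j, f * (v i * q * u j) * f = v i * q * u j := fun q i j => by
    rw [mul_assoc (f), mul_assoc (v i * q), huf, ← mul_assoc, ← mul_assoc, hfv]
  have hcor : ∀ q i j, ∃ c μ : k, ρ q i j = c ∧ v i * q * u j = c • f + μ • z := by
    intro q i j
    obtain ⟨c, hc', hmem⟩ := hdec _ (hvzu q i j)
    obtain ⟨μ, hμ⟩ := Submodule.mem_span_singleton.1 (hJz hmem)
    refine ⟨c, μ, ?_, by rw [hμ, add_sub_cancel]⟩
    rw [← hc', map_mul, map_mul, hρv, hρu, Matrix.single_mul_mul_single]
    simp
  have hz0 : z ≠ 0 := by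
    intro h0
    apply hne
    have key : ∀ q, τ q = τ f * (ρ q).trace := by
      intro q
      calc τ q = τ (∑ i, u i * (v i * q)) := by
            rw [← hτ.2 q, ← hsum, Finset.sum_mul]
            simp only [mul_assoc]
        _ = ∑ i, τ (v i * q * u i) := by rw [map_sum]; exact Finset.sum_congr rfl fun i _ => hτ.1 _ _
        _ = ∑ i, τ f * ρ q i i := by
            refine Finset.sum_congr rfl fun i _ => ?_
            obtain ⟨c, μ, hc', hq⟩ := hcor q i i
            rw [hq, h0, smul_zero, add_zero, map_smul, smul_eq_mul, hc', mul_comm]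
        _ = _ := by rw [← Finset.mul_sum]; rfl
    rw [key y, key r, hnil n ρ]
  obtain ⟨hz1, hz2⟩ := (hJmem z).1 hz
  have hzz : z * z = 0 := by
    obtain ⟨μ, hμ⟩ := Submodule.mem_span_singleton.1 (hJz (hJmul (Submodule.mul_mem_mul hz hz)))
    have hpw : ∀ m : ℕ, z ^ (m + 1) = μ ^ m • z := by
      intro m
      induction m with
      | zero => simp
      | succ m ih => rw [pow_succ, ih, smul_mul_assoc, ← hμ, smul_smul, pow_succ]
    have := hkerN z (hJker z hz)
    rw [hpw, smul_eq_zero_iff_left hz0] at this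
    rw [← hμ, eq_zero_of_pow_eq_zero this, zero_smul]
  -- a basis of the summand
  let fam : (Fin n × Fin n) ⊕ (Fin n × Fin n) → A :=
    Sum.elim (fun q => u q.1 * v q.2) (fun q => u q.1 * z * v q.2)
  have hli : LinearIndependent k fam := by
    rw [Fintype.linearIndependent_iff]
    intro c hcs
    rw [Fintype.sum_sum_type] at hcs
    simp only [fam, Sum.elim_inl, Sum.elim_inr] at hcs
    have hc0' : ∀ q : Fin n × Fin n, c (Sum.inl q) = 0 := by
      rintro ⟨p, q⟩
      have h1 := congrFun (congrFun (congrArg ρ hcs) p) q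
      simp only [map_add, map_sum, map_smul, map_mul, hρu, hρv, hz2, mul_zero, zero_mul, smul_zero,
        Finset.sum_const_zero, add_zero, map_zero, Matrix.single_mul_single_same, mul_one, Matrix.zero_apply] at h1
      simpa [Matrix.sum_apply, Matrix.single_apply, Fintype.sum_prod_type, ite_and] using h1
    have hc1' : ∀ q : Fin n × Fin n, c (Sum.inr q) = 0 := by
      rintro ⟨p, q⟩
      simp only [hc0', zero_smul, Finset.sum_const_zero, zero_add] at hcs
      have hvu : ∀ i j, (v i * u j) * z = (if i = j then (1 : k) else 0) • z ∧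
          z * (v i * u j) = (if i = j then (1 : k) else 0) • z := by
        intro i j
        obtain ⟨c', μ, hc', hq⟩ := hcor e i j
        rw [hve] at hq
        rw [hρe, Matrix.one_apply] at hc'
        rw [hq, add_mul, mul_add, smul_mul_assoc, mul_smul_comm, smul_mul_assoc, mul_smul_comm, (hfC z hz1).1,
          (hfC z hz1).2, hzz, smul_zero, add_zero, hc']
        exact ⟨rfl, rfl⟩
      have h1 := congrArg (fun q' => v p * q' * u q) hcs
      simp only [mul_zero, zero_mul, Finset.mul_sum, Finset.sum_mul, mul_smul_comm, smul_mul_assoc] at h1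
      have e : ∀ i j, v p * (u i * z * v j) * u q
          = ((if p = i then (1 : k) else 0) * if j = q then 1 else 0) • z := by
        intro i j
        calc v p * (u i * z * v j) * u q = ((v p * u i) * z) * (v j * u q) := by simp only [mul_assoc]
          _ = _ := by rw [(hvu p i).1, smul_mul_assoc, (hvu j q).2, smul_smul]
      simp only [e, smul_smul, ← Finset.sum_smul] at h1
      have := (smul_eq_zero_iff_left hz0).1 h1
      simpa [Fintype.sum_prod_type, ite_and] using this
    rintro (q | q)
    exacts [hc0' q, hc1' q]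
  have hspan : Submodule.span k (Set.range fam) = LinearMap.range (LinearMap.mulLeft k e) := by
    refine le_antisymm (Submodule.span_le.2 ?_) ?_
    · rintro _ ⟨(q | q), rfl⟩
      · exact ⟨u q.1 * v q.2, by simp only [LinearMap.mulLeft_apply, fam, Sum.elim_inl, ← mul_assoc, hu]⟩
      · exact ⟨u q.1 * z * v q.2, by simp only [LinearMap.mulLeft_apply, fam, Sum.elim_inr, ← mul_assoc, hu]⟩
    · rintro _ ⟨q, rfl⟩
      rw [LinearMap.mulLeft_apply]
      have hq : e * q = ∑ i, ∑ j, u i * (v i * q * u j) * v j := by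
        calc e * q = e * q * e := by rw [mul_assoc, (hc q).symm.eq, ← mul_assoc, he.eq]
          _ = (∑ i, u i * v i) * q * (∑ j, u j * v j) := by rw [hsum]
          _ = _ := by
            simp only [Finset.sum_mul, Finset.mul_sum, mul_assoc]
            exact Finset.sum_comm
      rw [hq]
      refine Submodule.sum_mem _ fun i _ => Submodule.sum_mem _ fun j _ => ?_
      obtain ⟨c, μ, -, h⟩ := hcor q i j
      rw [h, mul_add, add_mul, mul_smul_comm, smul_mul_assoc, mul_smul_comm, smul_mul_assoc, huf]
      exact Submodule.add_mem _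
        (Submodule.smul_mem _ _ (Submodule.subset_span ⟨Sum.inl (i, j), rfl⟩))
        (Submodule.smul_mem _ _ (Submodule.subset_span ⟨Sum.inr (i, j), rfl⟩))
  refine ⟨n, ?_⟩
  rw [← hspan, finrank_span_eq_card hli, Fintype.card_sum, Fintype.card_prod, Fintype.card_fin]
  ring

end CfsgLib.Blocks.TwoChar
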