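import Mathlib
import Cfsg.Agent.Blocks.Residue
import Cfsg.Agent.Blocks.Idempotent

/-!
# Reduction modulo `M`: algebraic closure, independence and rank
-/

set_option linter.unusedSectionVars false
set_option linter.style.haveILetI false

namespace CfsgLib.Blocks.TwoChar

open Cfsg CfsgLib.Blocks Polynomial

variable {p : ℕ} {M : Ideal AlgInt}

/-- The local ring is integrally closed in `ℂ`. -/
theorem memLocalRing_root (hM : IsPModular p M) {P : (localRing hM)[X]} (hP : P.Monic) {β : ℂ}
    (hβ : (P.map (localRing hM).subtype).eval β = 0) : MemLocalRing M β := by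
  classical
  haveI := hM.2.1.isPrime
  obtain ⟨n, hn⟩ : ∃ n, n = P.natDegree := ⟨_, rfl⟩
  choose num den hden hfrac using fun i : Fin n => (P.coeff i).2
  set b : AlgInt := ∏ i, den i with hb
  have hbM : b ∉ M := fun h => by
    obtain ⟨i, -, hi⟩ := Ideal.IsPrime.prod_mem_iff.1 h
    exact hden i hi
  let c : Fin n → AlgInt := fun i => num i * (∏ j ∈ Finset.univ.erase i, den j) * b ^ (n - (i : ℕ) - 1)
  have hc : ∀ i : Fin n, (c i : ℂ) * (b : ℂ) ^ (i : ℕ) = (P.coeff i : ℂ) * (b : ℂ) ^ n := by
    intro i
    have h1 : (den i : AlgInt) * ∏ j ∈ Finset.univ.erase i, den j = b :=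
      Finset.mul_prod_erase _ _ (Finset.mem_univ i)
    have h1' : ((den i : AlgInt) : ℂ) * ((∏ j ∈ Finset.univ.erase i, den j : AlgInt) : ℂ) = (b : ℂ) := by
      rw [← h1]; rfl
    have hd := algInt_coe_ne_zero (hden i)
    have hn' : (b : ℂ) ^ n = (b : ℂ) ^ (n - (i : ℕ) - 1) * (b : ℂ) * (b : ℂ) ^ (i : ℕ) := by
      rw [← pow_succ, ← pow_add]
      congr 1
      have := i.2
      omega
    rw [hn', ← hfrac i]
    simp only [c]
    push_cast
    rw [div_mul_eq_mul_div, eq_div_iff hd]
    push_cast at h1'
    rw [← h1']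
    ring
  let Q : AlgInt[X] := X ^ n + ∑ i : Fin n, C (c i) * X ^ (i : ℕ)
  have hQ : Q.Monic := monic_X_pow_add (degree_sum_fin_lt c)
  have hev : Q.eval₂ (algebraMap AlgInt ℂ) ((b : ℂ) * β) = 0 := by
    simp only [Q, eval₂_add, eval₂_X_pow, eval₂_finsetSum, eval₂_mul, eval₂_C]
    have e : ∀ i : Fin n, algebraMap AlgInt ℂ (c i) * ((b : ℂ) * β) ^ (i : ℕ)
        = (b : ℂ) ^ n * ((P.coeff i : ℂ) * β ^ (i : ℕ)) := fun i => by
      show (c i : ℂ) * _ = _
      rw [mul_pow, ← mul_assoc, hc]
      ring
    rw [Finset.sum_congr rfl fun i _ => e i, ← Finset.mul_sum, mul_pow, ← mul_add]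
    have h0 : (P.map (localRing hM).subtype).eval β
        = (P.coeff n : ℂ) * β ^ n + ∑ i : Fin n, (P.coeff i : ℂ) * β ^ (i : ℕ) := by
      rw [eval_map, eval₂_eq_sum_range, Finset.sum_range_succ, add_comm, ← hn, Finset.sum_range]
      rfl
    rw [show P.coeff n = 1 from hn ▸ hP.coeff_natDegree, OneMemClass.coe_one, one_mul] at h0
    rw [← h0, hβ, mul_zero]
  have hint : IsIntegral ℤ ((b : ℂ) * β) := isIntegral_trans (A := AlgInt) _ ⟨Q, hQ, hev⟩
  refine ⟨⟨(b : ℂ) * β, hint⟩, b, hbM, ?_⟩
  exact mul_div_cancel_left₀ β (algInt_coe_ne_zero hbM)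

theorem isAlgClosed_residue (hM : IsPModular p M) : @IsAlgClosed (Residue hM) (residueField hM) := by
  letI := residueField hM
  refine IsAlgClosed.of_exists_root _ fun q hq hirr => ?_
  have hsurj : Function.Surjective (Ideal.Quotient.mk (localIdeal hM)) := Ideal.Quotient.mk_surjective
  obtain ⟨P, hPq, hPdeg, hPm⟩ := lifts_and_degree_eq_and_monic
    (f := Ideal.Quotient.mk (localIdeal hM)) (p := q) (map_surjective _ hsurj q) hq
  have hdeg : (P.map (localRing hM).subtype).degree ≠ 0 := by
    rw [hPm.degree_map, hPdeg]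
    exact (degree_pos_of_irreducible hirr).ne'
  obtain ⟨β, hβ⟩ := IsAlgClosed.exists_root _ hdeg
  refine ⟨Ideal.Quotient.mk (localIdeal hM) ⟨β, memLocalRing_root hM hPm hβ⟩, ?_⟩
  rw [← hPq, eval_map_apply]
  have : P.eval (⟨β, memLocalRing_root hM hPm hβ⟩ : localRing hM) = 0 := by
    apply Subtype.ext
    have h2 : (P.map (localRing hM).subtype).eval
        ((localRing hM).subtype ⟨β, memLocalRing_root hM hPm hβ⟩) = 0 := hβ
    rw [eval_map_apply] at h2
    exact h2
  rw [this, map_zero]

/-- Functions with independent reductions are independent. -/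
theorem linearIndependent_of_red (hM : IsPModular p M) {ι I : Type*} [Fintype ι] [Fintype I]
    (W : ι → I → localRing hM)
    (h : letI := residueField hM
      LinearIndependent (Residue hM) fun i x => Ideal.Quotient.mk (localIdeal hM) (W i x)) :
    LinearIndependent ℂ fun i x => (W i x : ℂ) := by
  classical
  letI := residueField hM
  set q := Ideal.Quotient.mk (localIdeal hM) with hq
  obtain ⟨φ, hφ⟩ := LinearMap.exists_leftInverse_of_injective
    (Fintype.linearCombination (Residue hM) fun i x => q (W i x))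
    (LinearMap.ker_eq_bot.2 (linearIndependent_iff_injective_fintypeLinearCombination.1 h))
  choose lam hlam using fun (i : ι) (x : I) => Ideal.Quotient.mk_surjective (I := localIdeal hM)
    (φ (Pi.single x 1) i)
  set L : Matrix ι I (localRing hM) := Matrix.of lam with hL
  set V : Matrix I ι (localRing hM) := Matrix.of fun x i => W i x with hV
  have hred : (L * V).map q = 1 := by
    ext i j
    have h1 := congrFun (LinearMap.congr_fun hφ (Pi.single j 1)) i
    rw [LinearMap.comp_apply, Fintype.linearCombination_apply_single, one_smul, LinearMap.id_apply,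
      LinearMap.pi_apply_eq_sum_univ φ] at h1
    simp only [Finset.sum_apply, Pi.smul_apply, smul_eq_mul, Pi.single_apply] at h1
    rw [Matrix.map_apply, Matrix.one_apply, Matrix.mul_apply, map_sum, ← h1]
    refine Finset.sum_congr rfl fun x _ => ?_
    rw [hL, hV, Matrix.of_apply, Matrix.of_apply, map_mul, hlam, mul_comm,
      show (Pi.single x 1 : I → Residue hM) = fun y => if x = y then 1 else 0 from
        funext fun y => by simp [Pi.single_apply, eq_comm]]
  have hdet : ((localRing hM).subtype.mapMatrix (L * V)).det ≠ 0 := by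
    rw [← RingHom.map_det]
    intro h0
    have h1 : q (L * V).det = 1 := by
      rw [RingHom.map_det, RingHom.mapMatrix_apply, hred, Matrix.det_one]
    have h2 : (L * V).det = 0 := Subtype.ext h0
    rw [h2, map_zero] at h1
    exact zero_ne_one h1
  rw [Fintype.linearIndependent_iff]
  intro c hc
  refine congrFun (Matrix.eq_zero_of_mulVec_eq_zero hdet ?_)
  rw [RingHom.mapMatrix_apply, Matrix.map_mul, ← Matrix.mulVec_mulVec]
  rw [show (V.map (localRing hM).subtype).mulVec c = 0 from ?_, Matrix.mulVec_zero]
  funext x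
  have := congrFun hc x
  simp only [Finset.sum_apply, Pi.smul_apply, smul_eq_mul, Pi.zero_apply] at this
  rw [Pi.zero_apply, ← this, Matrix.mulVec, dotProduct]
  exact Finset.sum_congr rfl fun i _ => mul_comm _ _

theorem rank_map_le (hM : IsPModular p M) {I J : Type*} [Fintype I] [Fintype J] (P : Matrix I J (localRing hM)) :
    (letI := residueField hM; (P.map (Ideal.Quotient.mk (localIdeal hM))).rank)
      ≤ (P.map (localRing hM).subtype).rank := by
  classical
  letI := residueField hM
  rw [Matrix.rank_eq_finrank_span_cols, Matrix.rank_eq_finrank_span_cols]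
  obtain ⟨κ, a, ha, hspan, hli⟩ :=
    exists_linearIndependent' (Residue hM) (P.map (Ideal.Quotient.mk (localIdeal hM))).col
  haveI : Finite κ := Finite.of_injective a ha
  haveI := Fintype.ofFinite κ
  rw [← hspan, finrank_span_eq_card hli]
  have h := linearIndependent_of_red hM (fun i x => P x (a i)) hli
  rw [← finrank_span_eq_card h]
  refine Submodule.finrank_mono (Submodule.span_mono ?_)
  rintro _ ⟨i, rfl⟩
  exact ⟨a i, rfl⟩

/-- The reduction of an idempotent matrix has rank its trace. -/
theorem rank_map_of_idem (hM : IsPModular p M) {I : Type*} [Fintype I] [DecidableEq I]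
    (P : Matrix I I (localRing hM)) (hP : P * P = P) :
    ((letI := residueField hM; (P.map (Ideal.Quotient.mk (localIdeal hM))).rank : ℕ) : ℂ)
      = (P.trace : ℂ) := by
  classical
  letI := residueField hM
  set q := Ideal.Quotient.mk (localIdeal hM) with hq
  set s := (localRing hM).subtype with hs
  have hrk : ∀ R : Matrix I I ℂ, R * R = R → (R.rank : ℂ) = R.trace := by
    intro R hR
    have h := LinearMap.IsProj.trace (f := Matrix.toLin' R) (p := LinearMap.range (Matrix.toLin' R))
      ⟨fun v => LinearMap.mem_range_self _ v, by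
        rintro _ ⟨v, rfl⟩
        rw [← LinearMap.comp_apply, ← Matrix.toLin'_mul, hR]⟩
    rw [Matrix.trace_toLin'_eq] at h
    rw [h]
    rfl
  have hQ : (1 - P) * (1 - P) = 1 - P := by simp [mul_sub, sub_mul, hP]
  have h1 := rank_map_le hM P
  have h2 := rank_map_le hM (1 - P)
  simp only [← hq, ← hs] at h1 h2
  have hsum : (P.map s).rank + ((1 - P).map s).rank = Fintype.card I := by
    have a := hrk (P.map s) (by rw [← Matrix.map_mul, hP])
    have b := hrk ((1 - P).map s) (by rw [← Matrix.map_mul, hQ])
    have : (((P.map s).rank + ((1 - P).map s).rank : ℕ) : ℂ) = (Fintype.card I : ℕ) := by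
      rw [Nat.cast_add, a, b, ← Matrix.trace_add, ← Matrix.map_add _ (map_add s), add_sub_cancel,
        Matrix.map_one _ (map_zero s) (map_one s), Matrix.trace_one]
    exact_mod_cast this
  have hsum' : Fintype.card I ≤ (P.map q).rank + ((1 - P).map q).rank := by
    have e : P.map q + (1 - P).map q = 1 := by
      rw [← Matrix.map_add _ (map_add q), add_sub_cancel, Matrix.map_one _ (map_zero q) (map_one q)]
    rw [← Matrix.rank_one (n := I) (R := Residue hM), ← e]
    rw [Matrix.rank, Matrix.rank, Matrix.rank, Matrix.mulVecLin_add]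
    refine le_trans (Submodule.finrank_mono ?_) (Submodule.finrank_add_le_finrank_add_finrank _ _)
    rintro _ ⟨v, rfl⟩
    exact Submodule.add_mem_sup (LinearMap.mem_range_self _ v) (LinearMap.mem_range_self _ v)
  have he : (P.map q).rank = (P.map s).rank := by omega
  rw [he, hrk _ (by rw [← Matrix.map_mul, hP])]
  simp [Matrix.trace, hs]

end CfsgLib.Blocks.TwoChar
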