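import Mathlib
import Cfsg.Agent.Blocks.TwoChar.Algebra
import Cfsg.Agent.Blocks.TwoChar.Reduce
import Cfsg.Agent.Blocks.GradedNil
import Cfsg.Agent.Blocks.DefectGroup
import Cfsg.Agent.Blocks.RankOne
import Cfsg.Agent.Blocks.DefectOne

/-!
# Blocks with exactly two characters
-/

set_option linter.unusedSectionVars false
set_option linter.style.haveILetI false

namespace CfsgLib.Blocks.TwoChar

open Cfsg CfsgLib.Blocks CfsgLib.CharBasics
open scoped ComplexConjugate

section General

variable {k : Type*} [CommRing k] {G : Type*} [Group G] [Fintype G]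

/-- Coordinates. -/
noncomputable def coords : MonoidAlgebra k G ≃ₗ[k] (G → k) where
  toFun z g := z.coeff g
  map_add' z w := by funext g; simp
  map_smul' c z := by funext g; simp
  invFun v := ∑ g, MonoidAlgebra.single g (v g)
  left_inv z := by
    classical
    ext g
    simp [MonoidAlgebra.coeff_single, Finset.sum_apply', Finsupp.single_apply]
  right_inv v := by
    classical
    funext g
    simp [MonoidAlgebra.coeff_single, Finset.sum_apply', Finsupp.single_apply]

theorem coords_apply (z : MonoidAlgebra k G) (g : G) : coords z g = z.coeff g := rfl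

theorem sum_single' (z : MonoidAlgebra k G) : ∑ g, MonoidAlgebra.single g (z.coeff g) = z :=
  coords.symm_apply_apply z

theorem apply_eq_sum (f : Module.Dual k (MonoidAlgebra k G)) (z : MonoidAlgebra k G) :
    f z = ∑ h, z.coeff h * f (MonoidAlgebra.single h 1) := by
  conv_lhs => rw [← sum_single' z, map_sum]
  refine Finset.sum_congr rfl fun h _ => ?_
  rw [← smul_eq_mul, ← map_smul, MonoidAlgebra.smul_single, smul_eq_mul, mul_one]

theorem coeff_mul_one' (a b : MonoidAlgebra k G) : (a * b).coeff 1 = ∑ h, a.coeff h * b.coeff h⁻¹ := by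
  conv_lhs => rw [← sum_single' a]
  simp only [Finset.sum_mul, MonoidAlgebra.coeff_sum, Finset.sum_apply', MonoidAlgebra.coeff_single_mul_apply,
    mul_one]

theorem coeff_mul_comm_one (a b : MonoidAlgebra k G) : (a * b).coeff 1 = (b * a).coeff 1 := by
  rw [coeff_mul_one', coeff_mul_one', ← Equiv.sum_comp (Equiv.inv G)]
  exact Finset.sum_congr rfl fun h _ => by simp [mul_comm]

end General

variable {G : Type*} [Group G] [Fintype G] {p : ℕ} {M : Ideal AlgInt}

/-- In a block with two members and positive defect the degrees square-sum to twice a square. -/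
theorem exists_sum_sq_eq (hM : IsPModular p M) {B : Set (IrrCharacter G)} (hB : IsPBlock M B)
    [Fintype (IrrCharacter G)] [DecidablePred (· ∈ B)] (hk : Nat.card B = 2) (ha : 0 < blockDefect p B) :
    ∃ n : ℕ, (∑ χ : IrrCharacter G, if χ ∈ B then charDegree (χ : G → ℂ) ^ 2 else 0) = 2 * n ^ 2 := by
  classical
  haveI := Fact.mk hM.1
  letI := residueField hM
  haveI : IsAlgClosed (Residue hM) := isAlgClosed_residue hM
  haveI : CharP (Residue hM) p := residue_charP hM
  haveI : Module.Finite (Residue hM) (MonoidAlgebra (Residue hM) G) :=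
    Module.Finite.equiv (coords (k := Residue hM) (G := G)).symm
  obtain ⟨q, hq⟩ : ∃ q, q = Ideal.Quotient.mk (localIdeal hM) := ⟨_, rfl⟩
  have hqs : Function.Surjective q := hq ▸ Ideal.Quotient.mk_surjective
  let eR : G → localRing hM := fun g => ⟨blockCoeff B g, memLocalRing_blockCoeff hM hB g⟩
  have heRconj : ∀ g x : G, eR (x * g * x⁻¹) = eR g := fun g x => Subtype.ext (by
    show blockCoeff B (x * g * x⁻¹) = blockCoeff B g
    simpa [coeff_blockElt] using coeff_conj (isClassElt_blockElt B) g x)
  have hint := isIntegralElt_blockElt hM hB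
  set e := redElt hM hint with hedef
  have hecoeff : ∀ g, e.coeff g = q (eR g) := fun g => by
    rw [hedef, coeff_redElt, red, hq]
    congr 1
    exact Subtype.ext (coeff_blockElt B g)
  have hc : ∀ z, Commute e z := by
    intro z
    rw [← sum_single' z]
    refine Commute.sum_right _ _ _ fun x _ => ?_
    refine MonoidAlgebra.ext (Finsupp.ext fun g => ?_)
    rw [MonoidAlgebra.coeff_mul_single_apply, MonoidAlgebra.coeff_single_mul_apply, hecoeff, hecoeff, mul_comm]
    congr 2
    rw [← heRconj (x⁻¹ * g) x, mul_inv_cancel_left]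
  have he : IsIdempotentElem e := by
    rw [IsIdempotentElem, hedef, ← redElt_mul hM hint hint]
    refine (redElt_congr hM _ _).2 fun g => ?_
    rw [(isIdempotentElem_blockElt B).eq, sub_self]
    exact memLocalIdeal_zero hM
  obtain ⟨g, hg⟩ := exists_defectClass hM hB
  have heg : e.coeff g ≠ 0 := by
    rw [hecoeff, hq, ne_eq, Ideal.Quotient.eq_zero_iff_mem, mem_localIdeal]
    exact hg.2.1
  have he0 : e ≠ 0 := fun h => heg (by rw [h]; simp)
  have hgreg : ¬ p ∣ orderOf g := fun h => hg.2.1 (blockCoeff_eq_zero hM hB h ▸ memLocalIdeal_zero hM)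
  have hpc : p ∣ Nat.card (Subgroup.centralizer ({g} : Set G)) := by
    have h := centExp_eq_blockDefect hM hB hg
    rw [centExp] at h
    exact Nat.dvd_of_factorization_pos (by omega)
  obtain ⟨u, hu⟩ := exists_prime_orderOf_dvd_card' p hpc
  have hug : Commute (u : G) g := Subgroup.mem_centralizer_singleton_iff.1 u.2
  have hup : orderOf (u : G) = p := by rw [Subgroup.orderOf_coe]; exact hu
  -- trace forms
  have hW : ∀ F : Fin 3 → Module.Dual (Residue hM) (MonoidAlgebra (Residue hM) G),
      (∀ i, IsTr e (F i)) → ¬ LinearIndependent (Residue hM) F := by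
    intro F hF hli
    let E : Module.Dual (Residue hM) (MonoidAlgebra (Residue hM) G) →ₗ[Residue hM] (G → Residue hM) :=
      { toFun := fun f g => f (MonoidAlgebra.single g 1)
        map_add' := fun f f' => rfl
        map_smul' := fun c f => rfl }
    have hE : LinearMap.ker E = ⊥ := by
      refine LinearMap.ker_eq_bot'.2 fun f hf => LinearMap.ext fun z => ?_
      rw [apply_eq_sum f z, LinearMap.zero_apply]
      exact Finset.sum_eq_zero fun h _ => by
        rw [show f (MonoidAlgebra.single h 1) = 0 from congrFun hf h, mul_zero]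
    have hliv := hli.map' E hE
    set v : Fin 3 → G → Residue hM := fun i g => F i (MonoidAlgebra.single g 1) with hv
    have hvc : ∀ i g x, v i (x * g * x⁻¹) = v i g := by
      intro i g x
      show F i (MonoidAlgebra.single (x * g * x⁻¹) 1) = F i (MonoidAlgebra.single g 1)
      have h1 : MonoidAlgebra.single (x * g * x⁻¹) (1 : Residue hM)
          = MonoidAlgebra.single x 1 * MonoidAlgebra.single (g * x⁻¹) 1 := by
        rw [MonoidAlgebra.single_mul_single, one_mul, mul_assoc]
      rw [h1, (hF i).1, MonoidAlgebra.single_mul_single, one_mul, inv_mul_cancel_right]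
    have hve : ∀ i g, v i g = ∑ h, e.coeff h * v i (h * g) := by
      intro i g
      show F i (MonoidAlgebra.single g 1) = _
      rw [← (hF i).2, apply_eq_sum (F i), ← Equiv.sum_comp (Equiv.mulRight g)]
      exact Finset.sum_congr rfl fun h _ => by simp [hv]
    let L : Residue hM → localRing hM := Function.surjInv hqs
    have hL : ∀ c, q (L c) = c := Function.surjInv_eq hqs
    let W : Fin 3 → G → localRing hM := fun i g => ∑ h, eR h * L (v i (h * g))
    have hred : (fun i g => Ideal.Quotient.mk (localIdeal hM) (W i g)) = v := by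
      funext i g
      rw [← hq, hve i g]
      simp only [W, map_sum, map_mul, hL, hecoeff]
    have hliW := linearIndependent_of_red hM W (by rw [hred]; exact hliv)
    set S : Finset (G → ℂ) :=
      Finset.image (fun χ : IrrCharacter G => (χ : G → ℂ)) (Finset.univ.filter fun χ : IrrCharacter G => χ ∈ B) with hS
    have hmem : ∀ i, (fun g => (W i g : ℂ)) ∈ Submodule.span ℂ (S : Set (G → ℂ)) := by
      intro i
      have hwc : IsClassFunction G fun g => ((L (v i g) : localRing hM) : ℂ) := fun g x => by
        show ((L (v i (x * g * x⁻¹)) : localRing hM) : ℂ) = _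
        rw [hvc]
      have hexp := classFun_expand hwc
      have hWe : (fun g => (W i g : ℂ)) = ∑ χ : IrrCharacter G,
          if χ ∈ B then classInner (fun g => ((L (v i g) : localRing hM) : ℂ)) (χ : G → ℂ) • (χ : G → ℂ) else 0 := by
        funext g
        have hω : ∀ χ : IrrCharacter G, ∑ h, blockCoeff B h * (χ : G → ℂ) (h * g)
            = if χ ∈ B then (χ : G → ℂ) g else 0 := by
          intro χ
          have h1 := omega_mul χ.2 (isClassElt_blockElt B) (MonoidAlgebra.single g (1 : ℂ))
          rw [omega_single, one_mul, omega_blockElt] at h1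
          have hne := apply_one_ne_zero χ.2
          rw [omega, div_eq_iff hne] at h1
          rw [← Equiv.sum_comp (Equiv.mulRight g)] at h1
          simp only [Equiv.coe_mulRight, MonoidAlgebra.coeff_mul_single_apply, mul_inv_cancel_right, mul_one,
            coeff_blockElt] at h1
          rw [h1, ite_mul, one_mul, zero_mul, ite_mul, zero_mul, div_mul_cancel₀ _ hne]
        calc (W i g : ℂ) = ∑ h, blockCoeff B h * ((L (v i (h * g)) : localRing hM) : ℂ) := by
              simp only [W, AddSubmonoidClass.coe_finsetSum, MulMemClass.coe_mul]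
              rfl
          _ = ∑ h, blockCoeff B h * ∑ χ : IrrCharacter G,
                classInner (fun g => ((L (v i g) : localRing hM) : ℂ)) (χ : G → ℂ) * (χ : G → ℂ) (h * g) := by
              refine Finset.sum_congr rfl fun h _ => ?_
              congr 1
              have := congrFun hexp (h * g)
              simpa only [Finset.sum_apply, Pi.smul_apply, smul_eq_mul] using this
          _ = _ := by
              simp only [Finset.mul_sum, Finset.sum_apply]
              rw [Finset.sum_comm]
              refine Finset.sum_congr rfl fun χ _ => ?_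
              simp only [mul_left_comm (blockCoeff B _), ← Finset.mul_sum, hω]
              split_ifs <;> simp
      rw [hWe]
      refine Submodule.sum_mem _ fun χ _ => ?_
      split_ifs with h
      · exact Submodule.smul_mem _ _ (Submodule.subset_span (by simp only [hS, Finset.coe_image]; exact ⟨χ, by simp [h], rfl⟩))
      · exact Submodule.zero_mem _
    have h1 := finrank_span_eq_card hliW
    have h2 : Submodule.span ℂ (Set.range fun i g => (W i g : ℂ)) ≤ Submodule.span ℂ (S : Set (G → ℂ)) := by
      rw [Submodule.span_le]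
      rintro _ ⟨i, rfl⟩
      exact hmem i
    have h3 := Submodule.finrank_mono h2
    have h4 := finrank_span_finset_le_card (R := ℂ) S
    have h5 : S.card ≤ 2 := by
      refine Finset.card_image_le.trans ?_
      rw [← hk, Nat.card_eq_fintype_card, Fintype.card_subtype]
    rw [h1, Fintype.card_fin] at h3
    rw [Set.finrank] at h4
    omega
  -- the coefficient form
  let τ : Module.Dual (Residue hM) (MonoidAlgebra (Residue hM) G) :=
    (LinearMap.proj (1 : G)) ∘ₗ (coords (k := Residue hM) (G := G)).toLinearMap ∘ₗ LinearMap.mulLeft _ e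
  have hτapp : ∀ z, τ z = (e * z).coeff 1 := fun z => rfl
  have hτ : IsTr e τ := by
    refine ⟨fun a b => ?_, fun z => by rw [hτapp, hτapp, ← mul_assoc, he.eq]⟩
    rw [hτapp, hτapp, ← mul_assoc, coeff_mul_comm_one, ← mul_assoc, ← (hc b).eq, mul_assoc]
  have hτs : ∀ x, τ (MonoidAlgebra.single x 1) = e.coeff x⁻¹ := fun x => by
    rw [hτapp, MonoidAlgebra.coeff_mul_single_apply, one_mul, mul_one]
  have hne : τ (MonoidAlgebra.single (g⁻¹ * (u : G)) 1) ≠ τ (MonoidAlgebra.single g⁻¹ 1) := by
    rw [hτs, hτs, inv_inv]
    have h0 : blockCoeff B (g⁻¹ * (u : G))⁻¹ = 0 := by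
      refine blockCoeff_eq_zero hM hB ?_
      rw [orderOf_inv, (hug.inv_right).symm.orderOf_mul_eq_mul_orderOf_of_coprime
        (by rw [orderOf_inv, hup]; exact ((hM.1.coprime_iff_not_dvd).2 hgreg).symm), hup]
      exact Dvd.intro_left _ rfl
    have h1 : e.coeff (g⁻¹ * (u : G))⁻¹ = 0 := by
      rw [hecoeff, hq, Ideal.Quotient.eq_zero_iff_mem, mem_localIdeal]
      show MemLocalIdeal M (blockCoeff B _)
      rw [h0]
      exact memLocalIdeal_zero hM
    rw [h1]
    exact fun h => heg h.symm
  have hnil : ∀ (m : ℕ) (ρ : MonoidAlgebra (Residue hM) G →ₐ[Residue hM] Matrix (Fin m) (Fin m) (Residue hM)),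
      (ρ (MonoidAlgebra.single (g⁻¹ * (u : G)) 1)).trace = (ρ (MonoidAlgebra.single g⁻¹ 1)).trace := by
    intro m ρ
    rcases Nat.eq_zero_or_pos m with rfl | hm
    · simp [Matrix.trace]
    haveI : Nonempty (Fin m) := ⟨⟨0, hm⟩⟩
    set U := ρ (MonoidAlgebra.single (u : G) 1) with hU
    set R := ρ (MonoidAlgebra.single g⁻¹ 1) with hR
    have hprod : ρ (MonoidAlgebra.single (g⁻¹ * (u : G)) 1) = R * U := by
      rw [hR, hU, ← map_mul, MonoidAlgebra.single_mul_single, one_mul]
    have hcomm : Commute R (U - 1) := by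
      refine Commute.sub_right ?_ (Commute.one_right _)
      rw [Commute, SemiconjBy, hR, hU, ← map_mul, ← map_mul, MonoidAlgebra.single_mul_single,
        MonoidAlgebra.single_mul_single, (hug.inv_right).symm.eq]
    have hUp : U ^ p = 1 := by
      rw [hU, ← map_pow, MonoidAlgebra.single_pow, one_pow, orderOf_dvd_iff_pow_eq_one.1 hup.dvd, ← MonoidAlgebra.one_def,
        map_one]
    have hnilU : (U - 1) ^ p = 0 := by
      rw [sub_pow_char_of_commute p (Commute.one_right U), hUp, one_pow, sub_self]
    have hN : IsNilpotent (R * (U - 1)) := ⟨p, by rw [hcomm.mul_pow, hnilU, mul_zero]⟩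
    have h0 := (Matrix.isNilpotent_trace_of_isNilpotent hN).eq_zero
    rw [mul_sub, mul_one, Matrix.trace_sub, sub_eq_zero] at h0
    rw [hprod, h0]
  obtain ⟨n, hn⟩ := finrank_range_eq_two_sq he hc he0 hW hτ hne hnil
  refine ⟨n, ?_⟩
  -- the dimension
  let P : Matrix G G (localRing hM) := fun x y => eR (x * y⁻¹)
  have hPP : P * P = P := by
    ext x y
    rw [Matrix.mul_apply, AddSubmonoidClass.coe_finsetSum]
    simp only [P, eR, MulMemClass.coe_mul]
    have h := coeff_mul_eq (blockElt B) (blockElt B) (x * y⁻¹)
    rw [(isIdempotentElem_blockElt B).eq, coeff_blockElt] at h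
    simp only [coeff_blockElt] at h
    rw [h]
    conv_rhs => rw [← Equiv.sum_comp ((Equiv.inv G).trans (Equiv.mulLeft x))]
    refine Finset.sum_congr rfl fun z _ => ?_
    simp [mul_assoc]
  have hrank := rank_map_of_idem hM P hPP
  have hcomm : (coords (k := Residue hM) (G := G)).toLinearMap ∘ₗ LinearMap.mulLeft (Residue hM) e
      = (P.map (Ideal.Quotient.mk (localIdeal hM))).mulVecLin ∘ₗ (coords (k := Residue hM) (G := G)).toLinearMap := by
    refine LinearMap.ext fun z => funext fun x => ?_
    have h := apply_eq_sum ((LinearMap.proj x) ∘ₗ (coords (k := Residue hM) (G := G)).toLinearMap ∘ₗ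
      LinearMap.mulLeft (Residue hM) e) z
    simp only [LinearMap.comp_apply, LinearEquiv.coe_coe, LinearMap.proj_apply, LinearMap.mulLeft_apply,
      coords_apply, MonoidAlgebra.coeff_mul_single_apply, mul_one, hecoeff, hq] at h
    rw [LinearMap.comp_apply, LinearMap.comp_apply, LinearEquiv.coe_coe, LinearMap.mulLeft_apply, coords_apply, h,
      Matrix.mulVecLin_apply, Matrix.mulVec, dotProduct]
    exact Finset.sum_congr rfl fun y _ => mul_comm _ _
  have hfr : (P.map (Ideal.Quotient.mk (localIdeal hM))).rank = 2 * n ^ 2 := by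
    rw [← hn, ← LinearEquiv.finrank_map_eq (coords (k := Residue hM) (G := G)), ← LinearMap.range_comp, hcomm,
      LinearMap.range_comp, LinearEquiv.range, Submodule.map_top]
    rfl
  rw [hfr] at hrank
  have htr : (P.trace : ℂ) = ((∑ χ : IrrCharacter G, if χ ∈ B then charDegree (χ : G → ℂ) ^ 2 else 0 : ℕ) : ℂ) := by
    simp only [Matrix.trace, Matrix.diag, P, mul_inv_cancel, Finset.sum_const, Finset.card_univ, nsmul_eq_mul,
      MulMemClass.coe_mul]
    show (((Fintype.card G : localRing hM)) : ℂ) * blockCoeff B 1 = _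
    rw [blockCoeff_eq, SubringClass.coe_natCast, Nat.card_eq_fintype_card, ← mul_assoc,
      mul_inv_cancel₀ (Nat.cast_ne_zero.2 Fintype.card_ne_zero), one_mul, Nat.cast_sum]
    refine Finset.sum_congr rfl fun χ _ => ?_
    split_ifs
    · rw [apply_one (isCharacter_of_irr χ.2), Complex.conj_natCast]; push_cast; ring
    · simp
  rw [htr] at hrank
  exact_mod_cast hrank.symm

theorem two_dvd_of_four_dvd {d e : ℕ} (h : 4 ∣ d ^ 2 + e ^ 2) : 2 ∣ d ∧ 2 ∣ e := by
  have hd := Nat.mod_lt d (show 4 > 0 by norm_num)
  have he := Nat.mod_lt e (show 4 > 0 by norm_num)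
  have h' : ((d % 4) ^ 2 + (e % 4) ^ 2) % 4 = 0 := by
    rw [Nat.add_mod, Nat.pow_mod, Nat.mod_mod, ← Nat.pow_mod, Nat.pow_mod (e % 4), Nat.mod_mod, ← Nat.pow_mod,
      ← Nat.add_mod]
    exact Nat.dvd_iff_mod_eq_zero.1 h
  constructor <;> rw [Nat.dvd_iff_mod_eq_zero]
  · interval_cases hd' : d % 4 <;> interval_cases he' : e % 4 <;> omega
  · interval_cases hd' : d % 4 <;> interval_cases he' : e % 4 <;> omega

theorem two_characters_iff (hM : IsPModular p M) {B : Set (IrrCharacter G)} (hB : IsPBlock M B) {D : Subgroup G}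
    (hD : IsDefectGroup p M B D) : Nat.card B = 2 ↔ Nat.card D = 2 := by
  classical
  haveI : Fintype (IrrCharacter G) := @Fintype.ofFinite _ finite_irrCharacter
  have hcard := card_defectGroup hM hB hD
  constructor
  · intro hk
    set a := blockDefect p B with ha
    have ha0 : 0 < a := by
      rcases Nat.eq_zero_or_pos a with h0 | h0
      · exfalso
        haveI : Subsingleton B :=
          ⟨fun a b => Subtype.ext (subsingleton_of_defect_zero hM hB h0 a.2 b.2)⟩
        have h1 := Finite.card_le_one_iff_subsingleton.2 (inferInstance : Subsingleton B)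
        omega
      · exact h0
    have hl : blockRank p B = 1 := by
      have h1 : blockRank p B ≤ 2 := by
        rw [← hk, Nat.card_eq_fintype_card]; exact blockRank_le hM hB
      have h2 := blockRank_pos hM hB
      rcases Nat.lt_or_ge (blockRank p B) 2 with h3 | h3
      · omega
      · exfalso
        have h0 := defect_zero_of_vanish (p := p) hM.1 (IsPBlock.nonempty hM hB) fun χ hχ g hg =>
          apply_eq_zero_of_rank_eq hM hB (by rw [← Nat.card_eq_fintype_card, hk]; omega) hχ hg
        omega
    obtain ⟨φ, d, nn, hφ, hmult, hsum⟩ := rank_one_structure hM hB hl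
    obtain ⟨n, hn⟩ := exists_sum_sq_eq hM hB hk ha0
    have h1 : ¬ p ∣ orderOf (1 : G) := by rw [orderOf_one]; exact hM.1.not_dvd_one
    set z : ℤ := ∑ ψ : IrrCharacter G, if ψ ∈ B then nn ψ * (charDegree (ψ : G → ℂ) : ℤ) else 0 with hz
    have hφ1 : φ 1 = (z : ℂ) := by
      rw [hφ 1 h1, hz, Int.cast_sum]
      refine Finset.sum_congr rfl fun ψ _ => ?_
      split_ifs
      · rw [apply_one (isCharacter_of_irr ψ.2)]; push_cast; ring
      · simp
    have hdeg : ∀ χ ∈ B, charDegree (χ : G → ℂ) = d χ * z.natAbs := by
      intro χ hχ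
      have h := hmult χ hχ 1 h1
      rw [apply_one (isCharacter_of_irr χ.2), hφ1] at h
      have h' : (charDegree (χ : G → ℂ) : ℤ) = (d χ : ℤ) * z := by exact_mod_cast h
      have := congrArg Int.natAbs h'
      rwa [Int.natAbs_mul, Int.natAbs_natCast, Int.natAbs_natCast] at this
    have hkey : z.natAbs ^ 2 * p ^ a = 2 * n ^ 2 := by
      rw [← hn, ← hsum, Finset.mul_sum]
      refine Finset.sum_congr rfl fun χ _ => ?_
      split_ifs with hχ
      · rw [hdeg χ hχ]; ring
      · rw [mul_zero]
    obtain ⟨χ, hχ⟩ := IsPBlock.nonempty hM hB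
    have hz0 : z.natAbs ≠ 0 := fun h0 => by
      have := hdeg χ hχ
      rw [h0, mul_zero] at this
      exact (charDegree_pos χ.2).ne' this
    rcases eq_or_ne p 2 with rfl | hp2
    · obtain ⟨x, y, hxy, hBxy⟩ := (Nat.card_eq_two_iff (α := B)).1 hk
      have hsum2 : ∀ f : IrrCharacter G → ℕ, (∑ ψ : IrrCharacter G, if ψ ∈ B then f ψ else 0) = f x + f y := by
        intro f
        rw [← Finset.sum_filter, Finset.sum_subtype (Finset.univ.filter (· ∈ B)) (p := (· ∈ B)) (fun _ => by simp) f,
          ← Finset.sum_pair (f := fun w : B => f w) hxy]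
        refine Finset.sum_congr (Finset.eq_univ_of_forall ?_).symm fun _ _ => rfl
        intro w
        have := hBxy.symm ▸ Set.mem_univ w
        simpa using this
      rw [hsum2 fun ψ => d ψ ^ 2] at hsum
      rw [hcard, show a = 1 from ?_, pow_one]
      by_contra hne1
      have h4 : 4 ∣ d (x : IrrCharacter G) ^ 2 + d (y : IrrCharacter G) ^ 2 := by
        rw [hsum]; exact Dvd.dvd.trans (by norm_num) (pow_dvd_pow 2 (show 2 ≤ a by omega))
      obtain ⟨hdx, hdy⟩ := two_dvd_of_four_dvd h4
      have hdvd : ∀ ψ ∈ B, 2 * z.natAbs ∣ charDegree (ψ : G → ℂ) := by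
        intro ψ hψ
        rw [hdeg ψ hψ]
        refine Nat.mul_dvd_mul_right ?_ _
        have := (hBxy.symm ▸ Set.mem_univ (⟨ψ, hψ⟩ : B))
        simp only [Set.mem_insert_iff, Set.mem_singleton_iff] at this
        rcases this with h | h
        · rw [show ψ = (x : IrrCharacter G) from congrArg Subtype.val h]; exact hdx
        · rw [show ψ = (y : IrrCharacter G) from congrArg Subtype.val h]; exact hdy
      have : ((2 * z.natAbs : ℕ) : ℤ) ∣ z := by
        rw [hz]
        refine Finset.dvd_sum fun ψ _ => ?_
        split_ifs with hψ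
        · exact Dvd.dvd.mul_left (Int.natCast_dvd_natCast.2 (hdvd ψ hψ)) _
        · exact dvd_zero _
      have h2 := Int.natCast_dvd.1 this
      have h3 := Nat.le_of_dvd (by omega) h2
      omega
    · exfalso
      have hn0 : n ≠ 0 := by
        rintro rfl
        exact mul_ne_zero (pow_ne_zero 2 hz0) (pow_ne_zero a hM.1.ne_zero) (by simpa using hkey)
      have h := congrArg (fun m => m.factorization 2) hkey
      simp only [Nat.factorization_mul (pow_ne_zero 2 hz0) (pow_ne_zero a hM.1.ne_zero),
        Nat.factorization_mul two_ne_zero (pow_ne_zero 2 hn0), Nat.factorization_pow, Finsupp.add_apply,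
        Finsupp.smul_apply, smul_eq_mul, hM.1.factorization, Nat.prime_two.factorization] at h
      rw [Finsupp.single_eq_of_ne (Ne.symm hp2), Finsupp.single_eq_same] at h
      omega
  · intro h2
    rw [hcard] at h2
    obtain ⟨rfl, h3⟩ : p = 2 ∧ blockDefect p B = 1 := by
      have ha0 : blockDefect p B ≠ 0 := fun h => by rw [h, pow_zero] at h2; omega
      have hpd : p ∣ 2 := h2 ▸ dvd_pow_self p ha0
      have hp := (Nat.prime_dvd_prime_iff_eq hM.1 Nat.prime_two).1 hpd
      subst hp
      exact ⟨rfl, Nat.pow_right_injective le_rfl (by simpa using h2)⟩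
    exact (defect_one_two hM hB h3).1

end CfsgLib.Blocks.TwoChar
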